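import Cfsg.Agent.H953.O8R.Data
import Cfsg.Agent.LieClassical.SympPerfect
import Cfsg.Agent.LieClassical.SympCenter
import Cfsg.Agent.ClassicalGeometry.NonsplitTorus
import Cfsg.Agent.S0765

/-!
# S3691, row `PΩ⁺₈(q)`, SPIN: the data of `PSp₆(q)` (helper372)
-/

set_option autoImplicit false
set_option linter.unusedSectionVars false

namespace Cfsg.Agent.H372.O8R.DSp

open Cfsg Matrix Cfsg.Agent.ClassicalGeometry.SympBasic Cfsg.Agent.LieClassical.SympPerfect Cfsg.Agent.H953.O8R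
open scoped commutatorElement

variable {K : Type} [Field K] {m : ℕ}

/-- the symplectic space -/
abbrev V (m : ℕ) (K : Type) := Fin m ⊕ Fin m → K

/-- the group -/
abbrev G (m : ℕ) (K : Type) [Field K] := Matrix.symplecticGroup (Fin m) K

/-- vectors supported by the pairs in `I` -/
def Su (I : Set (Fin m)) (v : V m K) : Prop := ∀ i, i ∉ I → v (Sum.inl i) = 0 ∧ v (Sum.inr i) = 0

theorem Su.mono {I J : Set (Fin m)} (h : I ⊆ J) {v : V m K} (hv : Su I v) : Su J v := fun i hi => hv i fun h' => hi (h h')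

theorem Su.sub {I : Set (Fin m)} {v w : V m K} (hv : Su I v) (hw : Su I w) : Su I (v - w) := fun i hi => by
  rw [Pi.sub_apply, Pi.sub_apply, (hv i hi).1, (hv i hi).2, (hw i hi).1, (hw i hi).2, sub_zero]
  exact ⟨rfl, rfl⟩

theorem Su.add {I : Set (Fin m)} {v w : V m K} (hv : Su I v) (hw : Su I w) : Su I (v + w) := fun i hi => by
  rw [Pi.add_apply, Pi.add_apply, (hv i hi).1, (hv i hi).2, (hw i hi).1, (hw i hi).2, add_zero]
  exact ⟨rfl, rfl⟩

theorem Su.smul {I : Set (Fin m)} {v : V m K} (hv : Su I v) (c : K) : Su I (c • v) := fun i hi => by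
  rw [Pi.smul_apply, Pi.smul_apply, (hv i hi).1, (hv i hi).2, smul_zero]
  exact ⟨rfl, rfl⟩

theorem su_inl {I : Set (Fin m)} {i : Fin m} (hi : i ∈ I) : Su I (Pi.single (Sum.inl i) 1 : V m K) := fun j hj => by
  have h : j ≠ i := fun h => hj (h ▸ hi)
  exact ⟨Pi.single_eq_of_ne (fun h' => h (Sum.inl_injective h')) _, Pi.single_eq_of_ne Sum.inr_ne_inl _⟩

theorem su_inr {I : Set (Fin m)} {i : Fin m} (hi : i ∈ I) : Su I (Pi.single (Sum.inr i) 1 : V m K) := fun j hj => by
  have h : j ≠ i := fun h => hj (h ▸ hi)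
  exact ⟨Pi.single_eq_of_ne Sum.inl_ne_inr _, Pi.single_eq_of_ne (fun h' => h (Sum.inr_injective h')) _⟩

theorem form_zero {I J : Set (Fin m)} (h : Disjoint I J) {v w : V m K} (hv : Su I v) (hw : Su J w) :
    sympForm m K v w = 0 := by
  rw [sympForm_eq_sum]
  refine Finset.sum_eq_zero fun i _ => ?_
  by_cases hi : i ∈ I
  · have hj : i ∉ J := fun hj => Set.disjoint_left.1 h hi hj
    rw [(hw i hj).1, (hw i hj).2]
    ring
  · rw [(hv i hi).1, (hv i hi).2]
    ring

/-- nondegeneracy on `I` -/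
theorem exists_ne {I : Set (Fin m)} {v : V m K} (hv : Su I v) (h0 : v ≠ 0) : ∃ z, Su I z ∧ sympForm m K v z ≠ 0 := by
  by_contra hcon
  push Not at hcon
  apply h0
  funext x
  rcases x with i | i
  · by_cases hi : i ∈ I
    · have h1 := hcon _ (su_inr hi)
      rw [sympForm_single_inr_right] at h1
      exact neg_eq_zero.1 h1
    · exact (hv i hi).1
  · by_cases hi : i ∈ I
    · have h1 := hcon _ (su_inl hi)
      rwa [sympForm_single_inl_right] at h1
    · exact (hv i hi).2

theorem exists_ne_two {I : Set (Fin m)} {v w : V m K} (hv : Su I v) (hv0 : v ≠ 0) (hw : Su I w) (hw0 : w ≠ 0) :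
    ∃ z, Su I z ∧ sympForm m K v z ≠ 0 ∧ sympForm m K w z ≠ 0 := by
  obtain ⟨a, ha, ha'⟩ := exists_ne hv hv0
  obtain ⟨b, hb, hb'⟩ := exists_ne hw hw0
  by_cases h1 : sympForm m K w a = 0
  · by_cases h2 : sympForm m K v b = 0
    · refine ⟨a + b, ha.add hb, ?_, ?_⟩
      · rwa [sympForm_add_right, h2, add_zero]
      · rwa [sympForm_add_right, h1, zero_add]
    · exact ⟨b, hb, h2, hb'⟩
  · exact ⟨a, ha, ha', h1⟩

/-- the group generated by the transvections in the vectors supported by `I` -/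
def T (I : Set (Fin m)) : Subgroup (G m K) := Subgroup.closure {g | ∃ (v : V m K) (c : K), Su I v ∧ g = transv v c}

theorem mem_T {I : Set (Fin m)} {v : V m K} (hv : Su I v) (c : K) : transv v c ∈ T (K := K) I :=
  Subgroup.subset_closure ⟨v, c, hv, rfl⟩

theorem T_mono {I J : Set (Fin m)} (h : I ⊆ J) : T (K := K) I ≤ T J :=
  (Subgroup.closure_le _).2 fun _ ⟨_, c, hv, e⟩ => e ▸ mem_T (hv.mono h) c

theorem T_fix {I : Set (Fin m)} {g : G m K} (hg : g ∈ T (K := K) I) {x : V m K} (hx : ∀ v, Su I v → sympForm m K x v = 0) :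
    g.1 *ᵥ x = x := by
  induction hg using Subgroup.closure_induction with
  | mem g hg =>
    obtain ⟨v, c, hv, rfl⟩ := hg
    rw [coe_transv, sympTransvection_mulVec, hx v hv, mul_zero, zero_smul, add_zero]
  | one => exact Matrix.one_mulVec x
  | mul a b _ _ iha ihb =>
    change (a.1 * b.1) *ᵥ x = x
    rw [← Matrix.mulVec_mulVec, ihb, iha]
  | inv a _ iha =>
    have h1 : (a⁻¹ : G m K).1 *ᵥ (a.1 *ᵥ x) = x := by
      rw [Matrix.mulVec_mulVec]
      have : (a⁻¹ : G m K).1 * a.1 = 1 := congrArg Subtype.val (inv_mul_cancel a)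
      rw [this, Matrix.one_mulVec]
    rwa [iha] at h1

theorem T_fix' {I J : Set (Fin m)} (h : Disjoint I J) {g : G m K} (hg : g ∈ T (K := K) I) {x : V m K} (hx : Su J x) :
    g.1 *ᵥ x = x := T_fix hg fun _ hv => form_zero h.symm hx hv

theorem T_comm {I J : Set (Fin m)} (h : Disjoint I J) {x y : G m K} (hx : x ∈ T (K := K) I) (hy : y ∈ T (K := K) J) :
    x * y = y * x := by
  induction hy using Subgroup.closure_induction with
  | mem y hy =>
    obtain ⟨v, c, hv, rfl⟩ := hy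
    have h1 := conj_transv x v c
    rw [T_fix' h hx hv] at h1
    exact mul_inv_eq_iff_eq_mul.1 h1
  | one => rw [mul_one, one_mul]
  | mul a b _ _ iha ihb => rw [← mul_assoc, iha, mul_assoc, ihb, mul_assoc]
  | inv a _ iha => rw [eq_inv_mul_iff_mul_eq, ← mul_assoc, ← iha, mul_assoc, mul_inv_cancel, mul_one]

theorem T_trans {I : Set (Fin m)} {v w : V m K} (hv : Su I v) (hv0 : v ≠ 0) (hw : Su I w) (hw0 : w ≠ 0) :
    ∃ g ∈ T (K := K) I, g.1 *ᵥ v = w := by
  obtain ⟨z, hz, h1, h2⟩ := exists_ne_two hv hv0 hw hw0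
  have h3 : sympForm m K z w ≠ 0 := by
    rw [sympForm_swap]; exact neg_ne_zero.2 h2
  refine ⟨transv (w - z) (sympForm m K z w)⁻¹ * transv (z - v) (sympForm m K v z)⁻¹,
    mul_mem (mem_T (hw.sub hz) _) (mem_T (hz.sub hv) _), ?_⟩
  change (transv (w - z) (sympForm m K z w)⁻¹ * transv (z - v) (sympForm m K v z)⁻¹ : G m K).1 *ᵥ v = w
  rw [coe_mul_mulVec, coe_transv, coe_transv, transv_sub_mulVec h1, transv_sub_mulVec h3]

theorem transv_vzero (c : K) : transv (0 : V m K) c = 1 := by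
  have h := transv_smul (0 : V m K) 0 c
  rwa [smul_zero, zero_pow two_ne_zero, zero_mul, transv_zero] at h

theorem T_perf {I : Set (Fin m)} (hK : ∃ l : K, l ≠ 0 ∧ l ^ 2 ≠ 1) : ⁅T (K := K) I, T (K := K) I⁆ = T I := by
  apply le_antisymm
  · rw [Subgroup.commutator_le]
    intro a ha b hb
    exact mul_mem (mul_mem (mul_mem ha hb) (inv_mem ha)) (inv_mem hb)
  · conv_lhs => rw [T]
    rw [Subgroup.closure_le]
    rintro _ ⟨v, c, hv, rfl⟩
    by_cases h0 : v = 0
    · rw [h0, transv_vzero]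
      exact one_mem _
    obtain ⟨l, hl0, hl1⟩ := hK
    obtain ⟨g, hg, hgv⟩ := T_trans hv h0 (hv.smul l) (smul_ne_zero hl0 h0)
    have h1 : l ^ 2 - 1 ≠ 0 := sub_ne_zero.2 hl1
    have h2 := conj_transv g v (c / (l ^ 2 - 1))
    rw [hgv, transv_smul] at h2
    have h3 : transv v c = ⁅g, transv v (c / (l ^ 2 - 1))⁆ := by
      rw [commutatorElement_def, h2, eq_mul_inv_iff_mul_eq, transv_mul]
      congr 1
      field_simp
      ring
    rw [SetLike.mem_coe, h3]
    exact Subgroup.commutator_mem_commutator hg (mem_T hv _)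

/-- a subgroup (upstairs) closed under conjugation by `T I` and containing `T J` contains `T I` -/
theorem T_top {I J : Set (Fin m)} (hJI : J ⊆ I) {j : Fin m} (hj : j ∈ J) {N : Subgroup (G m K)}
    (hN : ∀ g ∈ T (K := K) I, ∀ x ∈ N, g * x * g⁻¹ ∈ N) (hJ : T J ≤ N) : T I ≤ N := by
  rw [T, Subgroup.closure_le]
  rintro _ ⟨v, c, hv, rfl⟩
  by_cases h0 : v = 0
  · rw [h0, transv_vzero]
    exact one_mem _
  have h1 : (Pi.single (Sum.inl j) 1 : V m K) ≠ 0 := by
    intro h
    have := congrFun h (Sum.inl j)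
    rw [Pi.single_eq_same] at this
    exact one_ne_zero this
  obtain ⟨g, hg, hgv⟩ := T_trans (su_inl (hJI hj)) h1 hv h0
  have h2 := conj_transv g (Pi.single (Sum.inl j) 1) c
  rw [hgv] at h2
  rw [SetLike.mem_coe, ← h2]
  exact hN g hg _ (hJ (mem_T (su_inl hj) c))

/-! ### permutations of the pairs -/

/-- the permutation of the pairs -/
def pm (σ : Equiv.Perm (Fin m)) : G m K := ⟨(σ.sumCongr σ).permMatrix K, by
  rw [mem_symplecticGroup_iff]
  intro u v
  rw [Matrix.permMatrix_mulVec, Matrix.permMatrix_mulVec, sympForm_eq_sum, sympForm_eq_sum]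
  exact Equiv.sum_comp σ (fun i => u (Sum.inr i) * v (Sum.inl i) - u (Sum.inl i) * v (Sum.inr i))⟩

theorem pm_inl (σ : Equiv.Perm (Fin m)) (v : V m K) (i : Fin m) : ((pm σ : G m K).1 *ᵥ v) (Sum.inl i) = v (Sum.inl (σ i)) := by
  change ((σ.sumCongr σ).permMatrix K *ᵥ v) _ = _
  rw [Matrix.permMatrix_mulVec]
  rfl

theorem pm_inr (σ : Equiv.Perm (Fin m)) (v : V m K) (i : Fin m) : ((pm σ : G m K).1 *ᵥ v) (Sum.inr i) = v (Sum.inr (σ i)) := by
  change ((σ.sumCongr σ).permMatrix K *ᵥ v) _ = _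
  rw [Matrix.permMatrix_mulVec]
  rfl

theorem su_pm {σ : Equiv.Perm (Fin m)} {I J : Set (Fin m)} (h : ∀ i, σ i ∈ I → i ∈ J) {v : V m K} (hv : Su I v) :
    Su J ((pm σ : G m K).1 *ᵥ v) := fun i hi => by
  rw [pm_inl, pm_inr]
  exact hv _ fun h' => hi (h i h')

theorem pm_conj_le {σ : Equiv.Perm (Fin m)} {I J : Set (Fin m)} (h : ∀ i, σ i ∈ I → i ∈ J) :
    (T (K := K) I).map (MulAut.conj (pm σ)).toMonoidHom ≤ T J := by
  rw [T, MonoidHom.map_closure, Subgroup.closure_le]
  rintro _ ⟨_, ⟨v, c, hv, rfl⟩, rfl⟩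
  change pm σ * transv v c * (pm σ)⁻¹ ∈ _
  rw [conj_transv]
  exact mem_T (su_pm h hv) c

theorem pm_inv (σ : Equiv.Perm (Fin m)) : (pm σ : G m K)⁻¹ = pm σ⁻¹ := by
  rw [inv_eq_iff_mul_eq_one]
  apply ext_mulVec
  intro x
  rw [coe_mul_mulVec]
  funext i
  rcases i with i | i
  · rw [pm_inl, pm_inl]
    simp
  · rw [pm_inr, pm_inr]
    simp

theorem pm_conj {σ : Equiv.Perm (Fin m)} {I J : Set (Fin m)} (h : ∀ i, σ i ∈ I ↔ i ∈ J) :
    (T (K := K) I).map (MulAut.conj (pm σ)).toMonoidHom = T J := by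
  apply le_antisymm (pm_conj_le fun i => (h i).1)
  intro g hg
  have h1 : (T (K := K) J).map (MulAut.conj (pm σ⁻¹)).toMonoidHom ≤ T I := pm_conj_le fun i hi => by
    have := (h (σ⁻¹ i)).2 hi
    simpa using this
  refine ⟨_, h1 ⟨g, hg, rfl⟩, ?_⟩
  change pm σ * (pm σ⁻¹ * g * (pm σ⁻¹)⁻¹) * (pm σ)⁻¹ = g
  rw [← pm_inv]
  group

/-! ### `SL₂` on the first pair -/

/-- the block on the pair `0` -/
def em (A : Matrix (Fin 2) (Fin 2) K) : Matrix (Fin 3 ⊕ Fin 3) (Fin 3 ⊕ Fin 3) K :=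
  fromBlocks (diagonal ![A 0 0, 1, 1]) (diagonal ![A 0 1, 0, 0]) (diagonal ![A 1 0, 0, 0]) (diagonal ![A 1 1, 1, 1])

theorem em_inl (A : Matrix (Fin 2) (Fin 2) K) (v : V 3 K) (i : Fin 3) : (em A *ᵥ v) (Sum.inl i) =
    (![A 0 0, 1, 1] : Fin 3 → K) i * v (Sum.inl i) + (![A 0 1, 0, 0] : Fin 3 → K) i * v (Sum.inr i) := by
  have h : v = Sum.elim (v ∘ Sum.inl) (v ∘ Sum.inr) := (Sum.elim_comp_inl_inr v).symm
  rw [h, em, fromBlocks_mulVec]
  simp only [Sum.elim_inl, Sum.elim_comp_inl, Sum.elim_comp_inr, Pi.add_apply, mulVec_diagonal, Function.comp_apply,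
    Sum.elim_inr]

theorem em_inr (A : Matrix (Fin 2) (Fin 2) K) (v : V 3 K) (i : Fin 3) : (em A *ᵥ v) (Sum.inr i) =
    (![A 1 0, 0, 0] : Fin 3 → K) i * v (Sum.inl i) + (![A 1 1, 1, 1] : Fin 3 → K) i * v (Sum.inr i) := by
  have h : v = Sum.elim (v ∘ Sum.inl) (v ∘ Sum.inr) := (Sum.elim_comp_inl_inr v).symm
  rw [h, em, fromBlocks_mulVec]
  simp only [Sum.elim_inl, Sum.elim_comp_inl, Sum.elim_comp_inr, Pi.add_apply, mulVec_diagonal, Function.comp_apply,
    Sum.elim_inr]

theorem em_mem (A : Matrix.SpecialLinearGroup (Fin 2) K) : em A.1 ∈ Matrix.symplecticGroup (Fin 3) K := by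
  rw [mem_symplecticGroup_iff]
  intro u v
  have hdet : A.1 0 0 * A.1 1 1 - A.1 0 1 * A.1 1 0 = 1 := by
    rw [← Matrix.det_fin_two]; exact A.2
  rw [sympForm_eq_sum, sympForm_eq_sum]
  refine Finset.sum_congr rfl fun i _ => ?_
  rw [em_inl, em_inl, em_inr, em_inr]
  fin_cases i
  · simp
    linear_combination (u (Sum.inr 0) * v (Sum.inl 0) - u (Sum.inl 0) * v (Sum.inr 0)) * hdet
  · simp
  · simp

theorem em_mul (A B : Matrix (Fin 2) (Fin 2) K) : em (A * B) = em A * em B := by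
  rw [← Matrix.mulVec_injective.eq_iff]
  funext v
  rw [← Matrix.mulVec_mulVec]
  funext x
  rcases x with i | i
  · rw [em_inl, em_inl, em_inl, em_inr]
    fin_cases i <;> simp [Matrix.mul_apply, Fin.sum_univ_two] <;> ring
  · rw [em_inr, em_inr, em_inl, em_inr]
    fin_cases i <;> simp [Matrix.mul_apply, Fin.sum_univ_two] <;> ring

theorem em_one : em (1 : Matrix (Fin 2) (Fin 2) K) = 1 := by
  rw [← Matrix.mulVec_injective.eq_iff]
  funext v
  rw [Matrix.one_mulVec]
  funext x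
  rcases x with i | i
  · rw [em_inl]
    fin_cases i <;> simp
  · rw [em_inr]
    fin_cases i <;> simp

/-- `SL₂(K) → Sp₆(K)` -/
def emb : Matrix.SpecialLinearGroup (Fin 2) K →* G 3 K where
  toFun A := ⟨em A.1, em_mem A⟩
  map_one' := Subtype.ext em_one
  map_mul' A B := Subtype.ext (em_mul A.1 B.1)

theorem emb_fix (A : Matrix.SpecialLinearGroup (Fin 2) K) {v : V 3 K} (hv : Su {0}ᶜ v) : (emb A).1 *ᵥ v = v := by
  change em A.1 *ᵥ v = v
  have h0 := hv 0 (by simp)
  funext x
  rcases x with i | i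
  · rw [em_inl]
    fin_cases i
    · simp [h0.1, h0.2]
    · simp
    · simp
  · rw [em_inr]
    fin_cases i
    · simp [h0.1, h0.2]
    · simp
    · simp

theorem emb_injective : Function.Injective (emb (K := K)) := by
  intro A B h
  have h1 : em A.1 = em B.1 := congrArg Subtype.val h
  apply Subtype.ext
  have h2 := fun x y => congrFun (congrFun h1 x) y
  ext i j
  fin_cases i <;> fin_cases j
  · simpa [em] using h2 (Sum.inl 0) (Sum.inl 0)
  · simpa [em] using h2 (Sum.inl 0) (Sum.inr 0)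
  · simpa [em] using h2 (Sum.inr 0) (Sum.inl 0)
  · simpa [em] using h2 (Sum.inr 0) (Sum.inr 0)

/-- an isometry which fixes the pairs `≠ 0` lies in `T {0}` -/
theorem mem_T_of_fix {g : G 3 K} (hg : ∀ v : V 3 K, Su {0}ᶜ v → g.1 *ᵥ v = v) : g ∈ T (K := K) ({0} : Set (Fin 3)) := by
  set e : V 3 K := Pi.single (Sum.inl 0) 1 with he
  set f : V 3 K := Pi.single (Sum.inr 0) 1 with hf
  have hdis : Disjoint ({0} : Set (Fin 3)) {0}ᶜ := disjoint_compl_right
  have hst : ∀ {k : G 3 K} (_ : ∀ v : V 3 K, Su {0}ᶜ v → k.1 *ᵥ v = v) {x : V 3 K} (_ : Su {0} x), Su {0} (k.1 *ᵥ x) := by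
    intro k hk x hx i hi
    have hi' : i ∈ ({0}ᶜ : Set (Fin 3)) := hi
    have h1 : sympForm 3 K (k.1 *ᵥ x) (k.1 *ᵥ Pi.single (Sum.inr i) 1) = 0 := by
      rw [sympForm_mulVec k.2]
      exact form_zero hdis hx (su_inr hi')
    have h2 : sympForm 3 K (k.1 *ᵥ x) (k.1 *ᵥ Pi.single (Sum.inl i) 1) = 0 := by
      rw [sympForm_mulVec k.2]
      exact form_zero hdis hx (su_inl hi')
    rw [hk _ (su_inr hi'), sympForm_single_inr_right] at h1
    rw [hk _ (su_inl hi'), sympForm_single_inl_right] at h2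
    exact ⟨neg_eq_zero.1 h1, h2⟩
  have heS : Su ({0} : Set (Fin 3)) e := su_inl rfl
  have hfS : Su ({0} : Set (Fin 3)) f := su_inr rfl
  have he0 : e ≠ 0 := by
    intro h
    have := congrFun h (Sum.inl 0)
    rw [he, Pi.single_eq_same] at this
    exact one_ne_zero this
  have hge : g.1 *ᵥ e ≠ 0 := by
    intro h
    apply he0
    have h1 : (g⁻¹ : G 3 K).1 *ᵥ (g.1 *ᵥ e) = e := by
      rw [Matrix.mulVec_mulVec]
      have : (g⁻¹ : G 3 K).1 * g.1 = 1 := congrArg Subtype.val (inv_mul_cancel g)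
      rw [this, Matrix.one_mulVec]
    rw [← h1, h, Matrix.mulVec_zero]
  obtain ⟨h, hh, hhe⟩ := T_trans (hst hg heS) hge heS he0
  -- `k = h g` fixes `e` and the other pairs
  have hk : ∀ v : V 3 K, Su {0}ᶜ v → (h * g).1 *ᵥ v = v := fun v hv => by
    rw [coe_mul_mulVec, hg v hv]
    exact T_fix' hdis hh hv
  have hke : (h * g).1 *ᵥ e = e := by rw [coe_mul_mulVec, hhe]
  have hkf := hst hk hfS
  obtain ⟨d, hd⟩ : ∃ d : K, (h * g).1 *ᵥ f = f + d • e := by
    refine ⟨((h * g).1 *ᵥ f) (Sum.inl 0), ?_⟩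
    have h1 : sympForm 3 K ((h * g).1 *ᵥ f) e = 1 := by
      conv_lhs => rw [← hke]
      rw [sympForm_mulVec (h * g).2, hf, sympForm_single_inr_left, he, Pi.single_eq_same]
    rw [he, sympForm_single_inl_right] at h1
    funext x
    rcases x with i | i
    · by_cases hi : i = 0
      · subst hi
        rw [Pi.add_apply, Pi.smul_apply, hf, he, Pi.single_eq_same, Pi.single_eq_of_ne Sum.inl_ne_inr]
        simp
      · have hi' : i ∉ ({0} : Set (Fin 3)) := hi
        rw [(hkf i hi').1, Pi.add_apply, Pi.smul_apply, (hfS i hi').1, (heS i hi').1, smul_zero, add_zero]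
    · by_cases hi : i = 0
      · subst hi
        rw [h1, Pi.add_apply, Pi.smul_apply, hf, he, Pi.single_eq_same, Pi.single_eq_of_ne Sum.inr_ne_inl]
        simp
      · have hi' : i ∉ ({0} : Set (Fin 3)) := hi
        rw [(hkf i hi').2, Pi.add_apply, Pi.smul_apply, (hfS i hi').2, (heS i hi').2, smul_zero, add_zero]
  have hfe : sympForm 3 K f e = 1 := by
    rw [hf, sympForm_single_inr_left, he, Pi.single_eq_same]
  have hkt : h * g = transv e d := by
    apply ext_mulVec
    intro x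
    -- decompose `x`
    obtain ⟨α, β, y, hy, hxy, hβ⟩ : ∃ (α β : K) (y : V 3 K), Su {0}ᶜ y ∧ x = α • e + β • f + y ∧ x (Sum.inr 0) = β := by
      refine ⟨x (Sum.inl 0), x (Sum.inr 0), x - (x (Sum.inl 0) • e + x (Sum.inr 0) • f), fun i hi => ?_, by abel, rfl⟩
      have hi' : i = 0 := by simpa using hi
      subst hi'
      constructor
      · rw [Pi.sub_apply, Pi.add_apply, Pi.smul_apply, Pi.smul_apply, he, hf, Pi.single_eq_same,
          Pi.single_eq_of_ne Sum.inl_ne_inr]
        simp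
      · rw [Pi.sub_apply, Pi.add_apply, Pi.smul_apply, Pi.smul_apply, he, hf, Pi.single_eq_same,
          Pi.single_eq_of_ne Sum.inr_ne_inl]
        simp
    rw [coe_transv, sympTransvection_mulVec]
    have h2 : sympForm 3 K x e = x (Sum.inr 0) := by
      rw [he, sympForm_single_inl_right]
    rw [h2, hβ, hxy]
    rw [Matrix.mulVec_add, Matrix.mulVec_add, Matrix.mulVec_smul, Matrix.mulVec_smul, hke, hd, hk y hy]
    module
  have hg' : g = h⁻¹ * transv e d := by rw [← hkt, inv_mul_cancel_left]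
  rw [hg']
  exact mul_mem (inv_mem hh) (mem_T heS d)

/-! ### the data -/

section final

variable [Fintype K] {n : ℕ}

/-- an element of `SL₂(q)` of order `(q + 1) / (2, q - 1)` -/
theorem exists_tau (hq : 16 ≤ Fintype.card K) (hn : n * Nat.gcd 2 (Fintype.card K - 1) = Fintype.card K + 1) :
    ∃ τ : Matrix.SpecialLinearGroup (Fin 2) K, τ ^ n = 1 ∧ τ ^ 2 ≠ 1 := by
  obtain ⟨a, -, ha, -⟩ := Cfsg.Agent.ClassicalGeometry.NonsplitTorus.exists_torus_TI K
  refine ⟨a ^ Nat.gcd 2 (Fintype.card K - 1), ?_, ?_⟩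
  · rw [← pow_mul, mul_comm, hn, ← ha, pow_orderOf_eq_one]
  · intro h
    rw [← pow_mul] at h
    have h1 := orderOf_dvd_of_pow_eq_one h
    rw [ha] at h1
    have h2 : Nat.gcd 2 (Fintype.card K - 1) ≤ 2 := Nat.gcd_le_left _ two_pos
    have h3 : 0 < Nat.gcd 2 (Fintype.card K - 1) := Nat.gcd_pos_of_pos_left _ two_pos
    have := Nat.le_of_dvd (by omega) h1
    omega

theorem exists_l (hq : 16 ≤ Fintype.card K) : ∃ l : K, l ≠ 0 ∧ l ^ 2 ≠ 1 := by
  classical
  by_contra hcon
  push Not at hcon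
  have h1 : (Finset.univ : Finset K) ⊆ {0, 1, -1} := by
    intro x _
    simp only [Finset.mem_insert, Finset.mem_singleton]
    by_cases hx : x = 0
    · exact Or.inl hx
    · exact Or.inr (mul_self_eq_one_iff.1 (by rw [← pow_two]; exact hcon x hx))
  have h2 := Finset.card_le_card h1
  have h3 : ({0, 1, -1} : Finset K).card ≤ 3 := Finset.card_le_three
  rw [Finset.card_univ] at h2
  omega

/-- the quotient map -/
abbrev qm (K : Type) [Field K] : G 3 K →* PSp 3 K := QuotientGroup.mk' (Subgroup.center (G 3 K))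

/-- transvections on pairs generate -/
theorem sup_top : T (K := K) ({0}ᶜ : Set (Fin 3)) ⊔ T ({1}ᶜ : Set (Fin 3)) = ⊤ := by
  set H := T (K := K) ({0}ᶜ : Set (Fin 3)) ⊔ T ({1}ᶜ : Set (Fin 3)) with hH
  have h0 : T (K := K) ({0}ᶜ : Set (Fin 3)) ≤ H := le_sup_left
  have h1 : T (K := K) ({1}ᶜ : Set (Fin 3)) ≤ H := le_sup_right
  set u : V 3 K := Pi.single (Sum.inl 2) 1 with hu
  have hu0 : u ≠ 0 := by
    intro h
    have := congrFun h (Sum.inl 2)
    rw [hu, Pi.single_eq_same] at this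
    exact one_ne_zero this
  have hu1 : Su ({0}ᶜ : Set (Fin 3)) u := su_inl (by simp)
  have hu2 : Su ({1}ᶜ : Set (Fin 3)) u := su_inl (by simp)
  -- `H` moves every nonzero vector to `u`
  have hmove : ∀ v : V 3 K, v ≠ 0 → ∃ g ∈ H, g.1 *ᵥ v = u := by
    intro v hv
    -- the case of a vector supported by `{1}ᶜ`
    have hcase : ∀ w : V 3 K, w ≠ 0 → Su ({1}ᶜ : Set (Fin 3)) w → ∃ g ∈ H, g.1 *ᵥ w = u := fun w hw0 hw => by
      obtain ⟨g, hg, e⟩ := T_trans hw hw0 hu2 hu0
      exact ⟨g, h1 hg, e⟩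
    -- decompose
    obtain ⟨x, y, hx, hy, rfl⟩ : ∃ x y : V 3 K, Su ({0} : Set (Fin 3)) x ∧ Su ({0}ᶜ : Set (Fin 3)) y ∧ v = x + y := by
      refine ⟨v (Sum.inl 0) • Pi.single (Sum.inl 0) 1 + v (Sum.inr 0) • Pi.single (Sum.inr 0) 1,
        v - (v (Sum.inl 0) • Pi.single (Sum.inl 0) 1 + v (Sum.inr 0) • Pi.single (Sum.inr 0) 1),
        ((su_inl (Set.mem_singleton (0 : Fin 3))).smul _).add ((su_inr (Set.mem_singleton (0 : Fin 3))).smul _),
        fun i hi => ?_, by abel⟩
      have hi' : i = 0 := by simpa using hi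
      subst hi'
      constructor
      · rw [Pi.sub_apply, Pi.add_apply, Pi.smul_apply, Pi.smul_apply, Pi.single_eq_same,
          Pi.single_eq_of_ne Sum.inl_ne_inr]
        simp
      · rw [Pi.sub_apply, Pi.add_apply, Pi.smul_apply, Pi.smul_apply, Pi.single_eq_same,
          Pi.single_eq_of_ne Sum.inr_ne_inl]
        simp
    have hx' : Su ({1}ᶜ : Set (Fin 3)) x := hx.mono (by
      intro i hi
      rw [Set.mem_singleton_iff] at hi
      subst hi
      simp)
    by_cases hy0 : y = 0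
    · subst hy0
      rw [add_zero] at hv ⊢
      exact hcase x hv hx'
    · obtain ⟨g, hg, e⟩ := T_trans hy hy0 hu1 hu0
      have e2 : g.1 *ᵥ (x + y) = x + u := by
        rw [Matrix.mulVec_add, e, T_fix' disjoint_compl_left hg hx]
      have h3 : x + u ≠ 0 := by
        intro h
        have h4 := congrFun h (Sum.inl 2)
        rw [Pi.add_apply, (hx 2 (by simp)).1, hu, Pi.single_eq_same, zero_add] at h4
        exact one_ne_zero h4
      obtain ⟨k, hk, e3⟩ := hcase (x + u) h3 (hx'.add hu2)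
      refine ⟨k * g, mul_mem hk (h0 hg), ?_⟩
      rw [coe_mul_mulVec, e2, e3]
  rw [eq_top_iff, ← S0765.result 3, Subgroup.closure_le]
  rintro A ⟨w, c, hA⟩
  have hA' : A = transv w c := Subtype.ext hA
  by_cases hw : w = 0
  · rw [hA', hw, transv_vzero]
    exact one_mem _
  obtain ⟨g, hg, e⟩ := hmove w hw
  have h2 := conj_transv g w c
  rw [e] at h2
  have h3 : A = g⁻¹ * transv u c * g := by
    rw [hA', ← h2]
    group
  rw [SetLike.mem_coe, h3]
  exact mul_mem (mul_mem (inv_mem hg) (h0 (mem_T hu1 c))) hg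

/-- **DATA-SP** -/
theorem data_sp (hq : 16 ≤ Fintype.card K) (hn : n * Nat.gcd 2 (Fintype.card K - 1) = Fintype.card K + 1) :
    ∃ (t : Fin 3 → PSp 3 K) (L M : Fin 3 → Subgroup (PSp 3 K)), H953.O8R.DSp (PSp 3 K) n t L M := by
  obtain ⟨τ, hτn, hτ2⟩ := exists_tau hq hn
  have hl := exists_l hq
  let g : Fin 3 → G 3 K := fun i => pm (Equiv.swap 0 i)
  let M' : Fin 3 → Subgroup (G 3 K) := fun i => T {i}
  let L' : Fin 3 → Subgroup (G 3 K) := fun i => T {i}ᶜ
  have hgM : ∀ i, (M' 0).map (MulAut.conj (g i)).toMonoidHom = M' i := fun i => pm_conj fun j => by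
    rw [Set.mem_singleton_iff, Set.mem_singleton_iff]
    constructor
    · intro h
      have := congrArg (Equiv.swap 0 i) h
      rwa [Equiv.swap_apply_self, Equiv.swap_apply_left] at this
    · rintro rfl
      exact Equiv.swap_apply_right _ _
  have hgL : ∀ i, (L' 0).map (MulAut.conj (g i)).toMonoidHom = L' i := fun i => pm_conj fun j => by
    rw [Set.mem_compl_iff, Set.mem_compl_iff, Set.mem_singleton_iff, Set.mem_singleton_iff]
    apply not_congr
    constructor
    · intro h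
      have := congrArg (Equiv.swap 0 i) h
      rwa [Equiv.swap_apply_self, Equiv.swap_apply_left] at this
    · rintro rfl
      exact Equiv.swap_apply_right _ _
  let t' : Fin 3 → G 3 K := fun i => g i * emb τ * (g i)⁻¹
  have ht0 : emb τ ∈ M' 0 := mem_T_of_fix fun v hv => emb_fix τ hv
  have htM : ∀ i, t' i ∈ M' i := fun i => by
    rw [← hgM i]
    exact ⟨_, ht0, rfl⟩
  have hle : ∀ i j, i ≠ j → M' j ≤ L' i := fun i j hij => T_mono (by
    intro k hk
    rw [Set.mem_singleton_iff] at hk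
    subst hk
    exact fun h => hij (Set.mem_singleton_iff.1 h).symm)
  have hcent : ∀ i, ∀ x ∈ L' i, ∀ y ∈ M' i, x * y = y * x := fun i x hx y hy => T_comm disjoint_compl_left hx hy
  have hc12 : ∀ x ∈ M' 1, ∀ y ∈ M' 2, x * y = y * x := fun x hx y hy => T_comm (by simp) hx hy
  have hmap : ∀ (X : Subgroup (G 3 K)), ⁅X, X⁆ = X → ⁅X.map (qm K), X.map (qm K)⁆ = X.map (qm K) := fun X hX => by
    rw [← Subgroup.map_commutator, hX]
  have hgt0 : g 0 = 1 := by
    apply ext_mulVec
    intro x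
    funext i
    have h1 : ((1 : G 3 K).1 *ᵥ x) = x := Matrix.one_mulVec x
    rw [h1]
    rcases i with i | i
    · rw [pm_inl]
      simp
    · rw [pm_inr]
      simp
  have ht0' : t' 0 = emb τ := by
    change g 0 * emb τ * (g 0)⁻¹ = emb τ
    rw [hgt0]
    group
  -- the normal closures
  have htop : ∀ j : Fin 3, j ≠ 0 → ∀ N : Subgroup (PSp 3 K), N ≤ (L' 0).map (qm K) →
      (∀ g ∈ (L' 0).map (qm K), ∀ x ∈ N, g * x * g⁻¹ ∈ N) → (M' j).map (qm K) ≤ N → N = (L' 0).map (qm K) := by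
    intro j hj N hN hN2 hN3
    apply le_antisymm hN
    rw [Subgroup.map_le_iff_le_comap]
    refine T_top (I := {0}ᶜ) (J := {j}) ?_ (Set.mem_singleton j) ?_ ?_
    · intro k hk
      rw [Set.mem_singleton_iff] at hk
      subst hk
      exact hj
    · intro a ha x hx
      rw [Subgroup.mem_comap] at hx ⊢
      rw [map_mul, map_mul, map_inv]
      exact hN2 _ ⟨a, ha, rfl⟩ _ hx
    · rw [← Subgroup.map_le_iff_le_comap]
      exact hN3
  refine ⟨fun i => qm K (t' i), fun i => (L' i).map (qm K), fun i => (M' i).map (qm K), ?_⟩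
  have hcom : ∀ X Y : Subgroup (G 3 K), (∀ x ∈ X, ∀ y ∈ Y, x * y = y * x) →
      ∀ x ∈ X.map (qm K), ∀ y ∈ Y.map (qm K), x * y = y * x := by
    rintro X Y h _ ⟨x, hx, rfl⟩ _ ⟨y, hy, rfl⟩
    rw [← map_mul, h x hx y hy, map_mul]
  exact
    { rot :=
        { pow := fun i => by
            rw [← map_pow]
            have h1 : t' i ^ n = 1 := by
              change (g i * emb τ * (g i)⁻¹) ^ n = 1
              rw [conj_pow, ← map_pow, hτn, map_one, mul_one, mul_inv_cancel]
            rw [h1, map_one]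
          sq := fun i h => by
            rw [← map_pow] at h
            have h1 : t' i ^ 2 ∈ Subgroup.center (G 3 K) := (QuotientGroup.eq_one_iff _).1 h
            have h2 : emb τ ^ 2 ∈ Subgroup.center (G 3 K) := by
              have h3 : emb τ ^ 2 = (g i)⁻¹ * t' i ^ 2 * (g i)⁻¹⁻¹ := by
                change _ = (g i)⁻¹ * (g i * emb τ * (g i)⁻¹) ^ 2 * (g i)⁻¹⁻¹
                rw [conj_pow]
                group
              rw [h3]
              exact Subgroup.Normal.conj_mem inferInstance _ h1 _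
            obtain ⟨c, hc⟩ := (LieClassical.SympCenter.mem_center_iff 3 _).1 h2
            have h3 : (emb τ ^ 2).1 *ᵥ (Pi.single (Sum.inl 1) 1 : V 3 K) = Pi.single (Sum.inl 1) 1 := by
              rw [← map_pow]
              exact emb_fix _ (su_inl (by simp))
            rw [hc, Matrix.smul_mulVec, Matrix.one_mulVec] at h3
            have h4 := congrFun h3 (Sum.inl 1)
            rw [Pi.smul_apply, Pi.single_eq_same, smul_eq_mul, mul_one] at h4
            rw [h4, one_smul] at hc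
            have h5 : emb τ ^ 2 = 1 := Subtype.ext hc
            rw [← map_pow, ← map_one emb] at h5
            exact hτ2 (emb_injective h5)
          perf := fun i => hmap _ (T_perf hl)
          cent := by
            rintro i _ ⟨x, hx, rfl⟩
            rw [← map_mul, ← map_mul, hcent i x hx _ (htM i)]
          mem := fun i j hij => ⟨_, hle i j hij (htM j), rfl⟩
          conj := fun i => by
            refine ⟨qm K (g i), ?_, ?_⟩
            · rw [ht0']
              change qm K (g i * emb τ * (g i)⁻¹) = _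
              rw [map_mul, map_mul, map_inv]
            · change (L' i).map (qm K) = ((L' 0).map (qm K)).map (MulAut.conj (qm K (g i))).toMonoidHom
              rw [← hgL i, Subgroup.map_map, Subgroup.map_map]
              congr 1
          A_le := Subgroup.map_mono (hle 0 1 (by decide))
          B_le := Subgroup.map_mono (hle 0 2 (by decide))
          comm := hcom _ _ hc12
          A_perf := hmap _ (T_perf hl)
          B_perf := hmap _ (T_perf hl)
          A_top := htop 1 (by decide)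
          B_top := htop 2 (by decide) }
      perf := fun i => hmap _ (T_perf hl)
      mem := fun i => ⟨_, htM i, rfl⟩
      cent := fun i => hcom _ _ (hcent i)
      le := fun i j hij => Subgroup.map_mono (hle i j hij)
      top := by
        change (L' 0).map (qm K) ⊔ (L' 1).map (qm K) = ⊤
        rw [← Subgroup.map_sup]
        change (T (K := K) ({0}ᶜ : Set (Fin 3)) ⊔ T ({1}ᶜ : Set (Fin 3))).map (qm K) = ⊤
        rw [sup_top]
        exact Subgroup.map_top_of_surjective _ (QuotientGroup.mk'_surjective _) }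

end final

end Cfsg.Agent.H372.O8R.DSp
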